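import Cfsg.Agent.H625.SylConst
import Cfsg.Agent.S0157

/-!
# Differences of permutation characters (helper119, S4526)
-/

set_option autoImplicit false

namespace Cfsg.Agent.H119.IMC

open Cfsg Cfsg.Agent.Characters.Core Cfsg.Agent.H625.SylConst MulAction
open scoped ComplexConjugate

universe u

/-- the number of orbits -/
noncomputable def no (G X : Type*) [Group G] [MulAction G X] : ℕ := Nat.card (Quotient (orbitRel G X))

theorem le_no {G X : Type*} [Group G] [MulAction G X] [Finite X] {α : Type*} (f : X → α)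
    (hf : ∀ (g : G) x, f (g • x) = f x) (s : Finset α) (hs : ∀ a ∈ s, ∃ x, f x = a) : s.card ≤ no G X := by
  classical
  have : Finite (Quotient (orbitRel G X)) := inferInstance
  let F : Quotient (orbitRel G X) → α := Quotient.lift f (by
    rintro a b ⟨g, hg⟩
    rw [← hg]
    exact hf g b)
  have h1 : ∀ a : s, ∃ q, F q = a := by
    intro a
    obtain ⟨x, hx⟩ := hs a a.2
    exact ⟨Quotient.mk _ x, hx⟩
  choose q hq using h1
  have h2 : Function.Injective q := by
    intro a b hab
    apply Subtype.ext
    rw [← hq a, ← hq b, hab]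
  have h3 := Nat.card_le_card_of_injective q h2
  rwa [Nat.card_eq_fintype_card, Fintype.card_coe] at h3

theorem no_le {G X : Type*} [Group G] [MulAction G X] {n : ℕ} (x : Fin n → X)
    (h : ∀ y, ∃ i, ∃ g : G, g • x i = y) : no G X ≤ n := by
  have h1 : Function.Surjective (fun i => (Quotient.mk _ (x i) : Quotient (orbitRel G X))) := by
    intro q
    induction q using Quotient.inductionOn with | _ y =>
    obtain ⟨i, g, hg⟩ := h y
    refine ⟨i, Quotient.sound ?_⟩
    exact ⟨g⁻¹, by rw [← hg]; exact inv_smul_smul g (x i)⟩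
  have h2 := Nat.card_le_card_of_surjective _ h1
  rwa [Nat.card_eq_fintype_card (α := Fin n), Fintype.card_fin] at h2

section

variable {G : Type u} [Group G] [Finite G] (X Y : Type*) [MulAction G X] [MulAction G Y]
  [Finite X] [Finite Y]

/-- the difference of two permutation characters -/
noncomputable def dif (g : G) : ℂ := (Nat.card (fixedBy X g) : ℂ) - Nat.card (fixedBy Y g)

omit [Finite G] in
theorem inner_perm [Fintype G] : classInner (fun g : G => (Nat.card (fixedBy X g) : ℂ))
    (fun g : G => (Nat.card (fixedBy Y g) : ℂ)) = no G (X × Y) := by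
  have h := Cfsg.Agent.S0157.avg_fixedBy (G := G) (X × Y)
  rw [no, ← h]
  simp only [classInner, Cfsg.Agent.S0157.card_fixedBy_prod, Nat.cast_mul, Complex.conj_natCast]

omit [Finite G] [Finite X] in
theorem fixedBy_one_card : Nat.card (fixedBy X (1 : G)) = Nat.card X := by
  rw [fixedBy_one_eq_univ, Nat.card_univ]

theorem irr_dif (hX : no G (X × X) = 3) (hY : no G (Y × Y) = 2) (hXY : 2 ≤ no G (X × Y))
    (hlt : Nat.card Y < Nat.card X) : IsIrrCharacter G (dif (G := G) X Y) := by
  have := Fintype.ofFinite G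
  set a : G → ℂ := fun g => (Nat.card (fixedBy X g) : ℂ) with ha
  set b : G → ℂ := fun g => (Nat.card (fixedBy Y g) : ℂ) with hb
  have hd : dif (G := G) X Y = a - b := rfl
  have hac : IsCharacter G a := Cfsg.Agent.S0157.isCharacter_fixedBy X
  have hbc : IsCharacter G b := Cfsg.Agent.S0157.isCharacter_fixedBy Y
  have e1 : classInner a a = 3 := by rw [ha, inner_perm, hX]; norm_num
  have e2 : classInner b b = 2 := by rw [hb, inner_perm, hY]; norm_num
  have e3 : classInner a b = no G (X × Y) := by rw [ha, hb, inner_perm]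
  have e4 : classInner b a = no G (X × Y) := by
    rw [← classInner_conj_symm, e3, Complex.conj_natCast]
  have hn : classInner (a - b) (a - b) = 5 - 2 * (no G (X × Y) : ℂ) := by
    rw [classInner_sub_left, classInner_sub_right, classInner_sub_right, e1, e2, e3, e4]
    ring
  have h1 : (a - b) 1 = ((Nat.card X - Nat.card Y : ℕ) : ℂ) := by
    rw [Nat.cast_sub hlt.le, Pi.sub_apply, ha, hb]
    simp only [fixedBy_one_card]
  have h0 : (a - b) 1 ≠ 0 := by
    rw [h1]
    exact_mod_cast (by omega : Nat.card X - Nat.card Y ≠ 0)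
  have hpos : 0 < (5 : ℝ) - 2 * (no G (X × Y) : ℝ) := by
    have h4 := classInner_self_eq_ofReal (a - b)
    rw [hn] at h4
    have h5 : (5 : ℝ) - 2 * (no G (X × Y) : ℝ) = (Nat.card G : ℝ)⁻¹ * ∑ g : G, Complex.normSq ((a - b) g) := by
      exact_mod_cast h4
    rw [h5]
    refine mul_pos (inv_pos.2 (by exact_mod_cast Nat.card_pos)) ?_
    refine Finset.sum_pos' (fun g _ => Complex.normSq_nonneg _) ⟨1, Finset.mem_univ _, ?_⟩
    exact Complex.normSq_pos.2 h0
  have h2 : no G (X × Y) = 2 := by
    have h6 : 2 * no G (X × Y) < 5 := by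
      have : ((2 * no G (X × Y) : ℕ) : ℝ) < (5 : ℕ) := by push_cast; linarith
      exact_mod_cast this
    omega
  have hn1 : classInner (a - b) (a - b) = 1 := by
    rw [hn, h2]
    norm_num
  rw [hd]
  rcases isIrr_of_generalized ⟨a, b, hac, hbc, rfl⟩ hn1 with h | h
  · exact h
  · exfalso
    obtain ⟨m, hm, hm1⟩ := isIrr_apply_one h
    have h4 : (((m + (Nat.card X - Nat.card Y) : ℕ)) : ℂ) = ((0 : ℕ) : ℂ) := by
      rw [Nat.cast_add, ← hm1, ← h1, Pi.neg_apply, Nat.cast_zero]
      exact neg_add_cancel ((a - b) 1)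
    have h5 : m + (Nat.card X - Nat.card Y) = 0 := by exact_mod_cast h4
    omega

omit [Finite G] [Finite X] [Finite Y] in
theorem dif_one (hlt : Nat.card Y ≤ Nat.card X) : dif (G := G) X Y 1 = ((Nat.card X - Nat.card Y : ℕ) : ℂ) := by
  rw [Nat.cast_sub hlt, dif, fixedBy_one_card, fixedBy_one_card]

theorem fix_dif (H : Subgroup G) (h : no H Y < no H X) : Fix H (dif (G := G) X Y) := by
  have := Fintype.ofFinite H
  rw [fix_iff]
  have h1 := Cfsg.Agent.S0157.avg_fixedBy (G := H) X
  have h2 := Cfsg.Agent.S0157.avg_fixedBy (G := H) Y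
  intro h0
  have h3 : ∑ z : H, (Nat.card (fixedBy X (z : G)) : ℂ) - ∑ z : H, (Nat.card (fixedBy Y (z : G)) : ℂ) = 0 := by
    rw [← Finset.sum_sub_distrib]
    exact h0
  have h4 : ((Nat.card (Quotient (orbitRel H X)) : ℕ) : ℂ) = ((Nat.card (Quotient (orbitRel H Y)) : ℕ) : ℂ) := by
    rw [← h1, ← h2]
    congr 1
    exact sub_eq_zero.1 h3
  have h5 : no H X = no H Y := by exact_mod_cast h4
  omega

/-- a 2-transitive action -/
theorem imc_two_transitive {p : ℕ} [hp : Fact p.Prime] (h2 : IsMultiplyPretransitive G X 2) (hX : 2 ≤ Nat.card X)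
    (hd : p ∣ Nat.card X - 1) : IMC p G := by
  classical
  have h1 : IsPretransitive G X := by
    rw [← is_one_pretransitive_iff]
    exact isMultiplyPretransitive_of_le (n := 2) (by norm_num) hX
  have hirr := (Cfsg.Agent.S0157.result X hX).2 h2
  have hne : Nontrivial X := by
    rw [← Finite.one_lt_card_iff_nontrivial]
    omega
  obtain ⟨x, y, hxy⟩ := hne.exists_pair_ne
  have h3 : (Nat.card (fixedBy X (1 : G)) : ℂ) - 1 = ((Nat.card X - 1 : ℕ) : ℂ) := by
    rw [fixedBy_one_card, Nat.cast_sub (by omega), Nat.cast_one]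
  refine IMC.of_le (stabilizer G x) ?_ ⟨_, hirr⟩ ?_ ?_
  · rw [index_stabilizer_of_transitive]
    intro h
    have h4 : p ∣ 1 := by
      have h5 := (Nat.dvd_sub h hd)
      rwa [show Nat.card X - (Nat.card X - 1) = 1 by omega] at h5
    exact hp.out.one_lt.ne' (Nat.dvd_one.1 h4)
  · have h4 := Cfsg.Agent.Blocks.Basic.irr_one_eq_charDegree hirr
    rw [h3] at h4
    have h5 : Nat.card X - 1 = charDegree (fun g : G => (Nat.card (fixedBy X g) : ℂ) - 1) := by exact_mod_cast h4
    rw [← h5]
    exact hd
  · have := Fintype.ofFinite (stabilizer G x)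
    rw [fix_iff]
    have h4 := Cfsg.Agent.S0157.avg_fixedBy (G := stabilizer G x) X
    have h5 : 2 ≤ no (stabilizer G x) X := by
      refine le_no (G := stabilizer G x) (X := X) (fun z => decide (z = x)) ?_ {true, false} ?_
      · rintro ⟨g, hg⟩ z
        have h6 : g • z = x ↔ z = x := by
          rw [mem_stabilizer_iff] at hg
          constructor
          · intro h
            rw [← hg] at h
            exact smul_left_cancel g h
          · rintro rfl
            exact hg
        exact decide_eq_decide.2 h6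
      · intro t ht
        rcases t with _ | _
        · exact ⟨y, decide_eq_false hxy.symm⟩
        · exact ⟨x, decide_eq_true rfl⟩
    intro h0
    rw [Finset.sum_sub_distrib, Finset.sum_const, Finset.card_univ, ← Nat.card_eq_fintype_card, nsmul_eq_mul, mul_one,
      sub_eq_zero] at h0
    have h6 : ∑ g : stabilizer G x, (Nat.card (fixedBy X g) : ℂ) = (Nat.card (stabilizer G x) : ℂ) := h0
    rw [h6, inv_mul_cancel₀ (by exact_mod_cast Nat.card_pos.ne')] at h4
    have h7 : 1 = no (stabilizer G x) X := by exact_mod_cast h4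
    omega

end

end Cfsg.Agent.H119.IMC
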