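import Cfsg.Agent.H119.IMC.M22
import Cfsg.Agent.H94.IMCPerm
import Cfsg.Agent.H654.FourRows
import Cfsg.Agent.H724.IMJOne
import Cfsg.Agent.H852.IMJTwo

/-!
# `IMC p S` for `S = J1`, `J2` (helper119, S4526)
-/

set_option autoImplicit false

namespace Cfsg.Agent.H119.IMC

open Cfsg Cfsg.Agent.H625.SylConst Cfsg.Agent.H794.Imc Cfsg.Agent.H94.IMCLoc Cfsg.Agent.H94.IMCPerm
open Cfsg.Agent.H852.IMMathieu

universe u

/-- **`J1`** -/
theorem imc_j1 {S : Type u} [Group S] [Finite S] (h : Spor.IsoJ1 S) {p : ℕ} [hp : Fact p.Prime]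
    (hd : p ∣ Nat.card S) : IMC p S := by
  by_cases h2 : p = 2
  · subst h2
    exact imc_two_of_loc (H654.FourRows.loc_J1 h)
  refine imc_of_exact hd ?_ (H724.IMJOne.im_j1 h hd)
  have hc : Nat.card S = 175560 := NotCT.Orders.j1 h
  rw [hc]
  intro hd2
  have h4 := prime_cases (n := 175560) hp.out [2, 2, 2, 3, 5, 7, 11, 19] (by decide)
    ((dvd_pow_self p two_ne_zero).trans hd2) (by decide)
  simp only [List.mem_cons, List.not_mem_nil, or_false] at h4
  rcases h4 with rfl | rfl | rfl | rfl | rfl | rfl | rfl | rfl <;> revert hd2 h2 <;> decide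

theorem imc_five_j2 {S : Type u} [Group S] [Finite S] (h : Spor.IsoJ2 S) [Fact (Nat.Prime 5)] : IMC 5 S := by
  have hS : Nat.card S = 604800 := NotCT.Orders.j2 h
  obtain ⟨t, u, Q, v, ρ, D⟩ := KFacts.J2.Facts.exists_dat_of h
  obtain ⟨f, U, V, H0, F⟩ := J2Type.CentU.main D.F
  have h60 : Nat.card H0 = 60 := by
    have h1 := J2Type.Order.card_centralizer_u D.F
    rw [F.str.card] at h1
    omega
  obtain ⟨w, hw⟩ : ∃ w : H0, orderOf w = 5 := exists_prime_orderOf_dvd_card' 5 (by rw [h60]; norm_num)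
  have hw' : orderOf (w : S) = 5 := by rw [Subgroup.orderOf_coe, hw]
  obtain ⟨e⟩ := J2Type.Cent5.exists_equiv_CQ D.F F h60 hS w.2 hw'
  obtain ⟨θ, hθ⟩ := Cfsg.Agent.H33.IM.of_quotient _ (H852.IMJTwo.im_five_alt e)
  refine imc_of_cent (w : S) hw' θ (k := 1) (by rw [pow_one]; exact hθ) ?_ (by rw [hS]; norm_num)
  rw [J2Type.Cent5.card_centralizer_five D.F F h60 hS w.2 hw',
    H852.IMJTwo.fac (n := 2) (m := 12) (by norm_num) (by norm_num) (by norm_num)]

/-- **`J2`** -/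
theorem imc_j2 {S : Type u} [Group S] [Finite S] (h : Spor.IsoJ2 S) {p : ℕ} [hp : Fact p.Prime]
    (hd : p ∣ Nat.card S) : IMC p S := by
  have hc : Nat.card S = 604800 := NotCT.Orders.j2 h
  by_cases h2 : p = 2
  · subst h2
    exact imc_two_of_loc (H654.FourRows.loc_J2 h)
  by_cases h3 : p = 3
  · subst h3
    have hcJ : Nat.card Spor.J2 = 604800 := NotCT.Orders.j2 ⟨MulEquiv.refl _⟩
    have hfin : Finite Spor.J2 := Nat.finite_of_card_ne_zero (by rw [hcJ]; norm_num)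
    obtain ⟨e⟩ := h
    refine IMC.of_equiv e ?_
    obtain ⟨H, h1, -, h2⟩ := Cfsg.Agent.S1624.result
    exact imc_of_index H (k := 36) (l := 63) h1 h2 (by norm_num) (by norm_num) (by norm_num) (by norm_num)
      (Or.inl (by decide)) (by decide +kernel)
  by_cases h5 : p = 5
  · subst h5
    exact imc_five_j2 h
  refine imc_of_exact hd ?_ (H852.IMJTwo.im_j2 h hd)
  rw [hc]
  intro hd2
  have h4 := prime_cases (n := 604800) hp.out [2, 2, 2, 2, 2, 2, 2, 3, 3, 3, 5, 5, 7] (by decide)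
    ((dvd_pow_self p two_ne_zero).trans hd2) (by decide)
  simp only [List.mem_cons, List.not_mem_nil, or_false] at h4
  rcases h4 with rfl | rfl | rfl | rfl | rfl | rfl | rfl | rfl | rfl | rfl | rfl | rfl | rfl <;>
    revert hd2 h2 h3 h5 <;> decide

end Cfsg.Agent.H119.IMC
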