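import Cfsg.Agent.H119.IMC.Diff
import Cfsg.Agent.H794.ImcTools
import Cfsg.Agent.H94.IMCLoc
import Cfsg.Agent.H852.IMMathieu2

/-!
# `IMC p S` for `S = M22` (helper119, S4526)

`p = 2`: the character of degree 154 of the action on 176 heptads is a constituent of the action on 231 duads.
-/

set_option autoImplicit false
open scoped Pointwise

namespace Cfsg.Agent.H119.IMC

open Cfsg Cfsg.Agent.Characters.Core Cfsg.Agent.H625.SylConst MulAction Cfsg.Agent.H794.Imc
open Cfsg.Agent.H852.IMMathieu Cfsg.Agent.H690.Spor.RankThree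

/-- the 22 points -/
def YS : Set GolayPt := {x | x ≠ none ∧ x ≠ some 0}

theorem hYS (g : Equiv.Perm GolayPt) (hg : g ∈ Spor.M22) (x : GolayPt) (hx : x ∈ YS) : g x ∈ YS := by
  refine ⟨fun h => hx.1 ?_, fun h => hx.2 ?_⟩
  · exact g.injective (h.trans (show none = g none from (show g none = none from hg.1.2).symm))
  · exact g.injective (h.trans (show some 0 = g (some 0) from (show g (some 0) = some 0 from hg.2).symm))

/-- `M22` is 3-transitive -/
theorem tr3 {a b c a' b' c' : GolayPt} (ha : a ∈ YS) (hb : b ∈ YS) (hc : c ∈ YS) (ha' : a' ∈ YS) (hb' : b' ∈ YS)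
    (hc' : c' ∈ YS) (hab : a ≠ b) (hac : a ≠ c) (hbc : b ≠ c) (hab' : a' ≠ b') (hac' : a' ≠ c') (hbc' : b' ≠ c') :
    ∃ g : Spor.M22, (g : Equiv.Perm GolayPt) a = a' ∧ (g : Equiv.Perm GolayPt) b = b' ∧
      (g : Equiv.Perm GolayPt) c = c' := by
  have inj : ∀ {x y z : GolayPt}, x ∈ YS → y ∈ YS → z ∈ YS → x ≠ y → x ≠ z → y ≠ z →
      Function.Injective (![none, some 0, x, y, z] : Fin 5 → GolayPt) := by
    intro x y z hx hy hz hxy hxz hyz i j hij
    have h0 : (none : GolayPt) ≠ some 0 := by simp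
    fin_cases i <;> fin_cases j <;> first | rfl | (exfalso; simp only [Matrix.cons_val, Fin.zero_eta, Fin.mk_one, Fin.reduceFinMk] at hij; first | exact h0 hij | exact h0 hij.symm | exact hx.1 hij | exact hx.1 hij.symm | exact hx.2 hij | exact hx.2 hij.symm | exact hy.1 hij | exact hy.1 hij.symm | exact hy.2 hij | exact hy.2 hij.symm | exact hz.1 hij | exact hz.1 hij.symm | exact hz.2 hij | exact hz.2 hij.symm | exact hxy hij | exact hxy hij.symm | exact hxz hij | exact hxz hij.symm | exact hyz hij | exact hyz hij.symm)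
  obtain ⟨g, hg⟩ := Cfsg.Agent.SporadicStructure.M23Index253.exists_map Cfsg.Agent.S0366.result le_rfl _ _
    (inj ha hb hc hab hac hbc) (inj ha' hb' hc' hab' hac' hbc')
  exact ⟨⟨(g : Equiv.Perm GolayPt), ⟨g.2, hg 0⟩, hg 1⟩, hg 2, hg 3, hg 4⟩

theorem tr2 {a b a' b' : GolayPt} (ha : a ∈ YS) (hb : b ∈ YS) (ha' : a' ∈ YS) (hb' : b' ∈ YS)
    (hab : a ≠ b) (hab' : a' ≠ b') :
    ∃ g : Spor.M22, (g : Equiv.Perm GolayPt) a = a' ∧ (g : Equiv.Perm GolayPt) b = b' := by
  have h3 : ∀ x y : GolayPt, ∃ z ∈ YS, x ≠ z ∧ y ≠ z := by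
    intro x y
    obtain ⟨z, hz⟩ : ∃ z, z ∉ ({none, some 0, x, y} : Finset GolayPt) := by
      by_contra hcon
      push Not at hcon
      have h1 : (Finset.univ : Finset GolayPt) ⊆ {none, some 0, x, y} := fun z _ => hcon z
      have h2 := Finset.card_le_card h1
      have h3 : (({none, some 0, x, y} : Finset GolayPt)).card ≤ 4 := Finset.card_le_four
      have h4 : (Finset.univ : Finset GolayPt).card = 24 := by simp
      omega
    simp only [Finset.mem_insert, Finset.mem_singleton, not_or] at hz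
    exact ⟨z, ⟨hz.1, hz.2.1⟩, fun h => hz.2.2.1 h.symm, fun h => hz.2.2.2 h.symm⟩
  obtain ⟨c, hc, h1, h2⟩ := h3 a b
  obtain ⟨c', hc', h1', h2'⟩ := h3 a' b'
  obtain ⟨g, e1, e2, -⟩ := tr3 ha hb hc ha' hb' hc' hab h1 h2 hab' h1' h2'
  exact ⟨g, e1, e2⟩

theorem card_YS : Nat.card YS = 22 := by
  have h1 : YS = ((Finset.univ.erase (none : GolayPt)).erase (some 0) : Finset GolayPt) := by
    ext x
    simp only [YS, Set.mem_ofPred_eq, Finset.coe_erase, Finset.coe_univ, Set.mem_sdiff, Set.mem_univ, true_and,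
      Set.mem_singleton_iff]
  rw [h1, Nat.card_coe_set_eq, Set.ncard_coe_finset]
  decide

/-- the action on the points -/
@[reducible] def actY : MulAction Spor.M22 YS := actOn Spor.M22 YS hYS

/-- the action on the heptads -/
@[reducible] def actX : MulAction Spor.M22 XP := actSub XP hXP

theorem no_YY : letI := actY; no Spor.M22 (YS × YS) = 2 := by
  let _ := actY
  have h2 : IsMultiplyPretransitive Spor.M22 YS 2 := by
    rw [is_two_pretransitive_iff]
    intro a b c d hab hcd
    obtain ⟨g, h1, h2⟩ := tr2 a.2 b.2 c.2 d.2 (fun h => hab (Subtype.ext h)) (fun h => hcd (Subtype.ext h))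
    exact ⟨g, Subtype.ext h1, Subtype.ext h2⟩
  have h1 : IsPretransitive Spor.M22 YS := by
    rw [← is_one_pretransitive_iff]
    exact isMultiplyPretransitive_of_le (n := 2) (by norm_num) (by rw [card_YS]; norm_num)
  exact (Cfsg.Agent.S0157.two_pretransitive_iff_card_orbits Spor.M22 YS (by rw [card_YS]; norm_num)).1 h2

theorem two_in {o : Finset GolayPt} (ho : o ∈ XP) : ∃ a b : GolayPt, a ∈ YS ∧ b ∈ YS ∧ a ≠ b ∧ a ∈ o ∧ b ∈ o := by
  have h1 : (o.erase none).card = 7 := by
    rw [Finset.card_erase_of_mem ho.2.1, card_oct ho.1]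
  obtain ⟨a, ha, b, hb, hab⟩ := Finset.one_lt_card.1 (by omega : 1 < (o.erase none).card)
  rw [Finset.mem_erase] at ha hb
  exact ⟨a, b, ⟨ha.1, fun h => ho.2.2 (h ▸ ha.2)⟩, ⟨hb.1, fun h => ho.2.2 (h ▸ hb.2)⟩, hab, ha.2, hb.2⟩

theorem two_out {o : Finset GolayPt} (ho : o ∈ XP) : ∃ a b : GolayPt, a ∈ YS ∧ b ∈ YS ∧ a ≠ b ∧ a ∉ o ∧ b ∉ o := by
  have h1 : (oᶜ.erase (some 0)).card = 15 := by
    rw [Finset.card_erase_of_mem (by rw [Finset.mem_compl]; exact ho.2.2), Finset.card_compl, card_oct ho.1]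
    simp
  obtain ⟨a, ha, b, hb, hab⟩ := Finset.one_lt_card.1 (by omega : 1 < (oᶜ.erase (some 0)).card)
  rw [Finset.mem_erase, Finset.mem_compl] at ha hb
  exact ⟨a, b, ⟨fun h => ha.2 (h ▸ ho.2.1), ha.1⟩, ⟨fun h => hb.2 (h ▸ ho.2.1), hb.1⟩, hab, ha.2, hb.2⟩

theorem no_XY : letI := actY; letI := actX; 2 ≤ no Spor.M22 (XP × YS) := by
  let _ := actY
  let _ := actX
  classical
  obtain ⟨o, ho⟩ := XP_nonempty
  obtain ⟨a, -, ha, -, -, hao, -⟩ := two_in ho
  obtain ⟨b, -, hb, -, -, hbo, -⟩ := two_out ho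
  have h := le_no (G := Spor.M22) (X := XP × YS) (fun t => decide ((t.2 : GolayPt) ∈ (t.1 : Finset GolayPt))) ?_
    {true, false} ?_
  · exact h
  · rintro g ⟨x, y⟩
    have h1 : ((g : Equiv.Perm GolayPt) • (y : GolayPt) ∈ (g : Equiv.Perm GolayPt) • (x : Finset GolayPt)) ↔
      (y : GolayPt) ∈ (x : Finset GolayPt) := Finset.smul_mem_smul_finset_iff _
    exact decide_eq_decide.2 h1
  · intro t ht
    rcases t with _ | _
    · exact ⟨(⟨o, ho⟩, ⟨b, hb⟩), decide_eq_false hbo⟩
    · exact ⟨(⟨o, ho⟩, ⟨a, ha⟩), decide_eq_true hao⟩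

theorem card_XP : Nat.card XP = 176 := by
  rw [Nat.card_coe_set_eq]
  exact (Cfsg.Agent.S1605.result none (some 0) (by simp)).1

/-- the character of degree 154 -/
theorem irr154 : letI := actY; letI := actX; IsIrrCharacter Spor.M22 (dif (G := Spor.M22) XP YS) := by
  let _ := actY
  let _ := actX
  have hfin : Finite Spor.M22 := Nat.finite_of_card_ne_zero (by rw [card_M22]; norm_num)
  classical
  have := Fintype.ofFinite XP
  exact irr_dif XP YS (R3.card_orbits r3_heptads) no_YY no_XY (by rw [card_XP, card_YS]; norm_num)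

/-- the stabilizer of a duad -/
def HD (D : Finset GolayPt) : Subgroup Spor.M22 :=
  (stabilizer (Equiv.Perm GolayPt) D).subgroupOf Spor.M22

theorem mem_HD {D : Finset GolayPt} {g : Spor.M22} : g ∈ HD D ↔ (g : Equiv.Perm GolayPt) • D = D := by
  rw [HD, Subgroup.mem_subgroupOf, mem_stabilizer_iff]

theorem smul_pair (g : Equiv.Perm GolayPt) (a b : GolayPt) : g • ({a, b} : Finset GolayPt) = {g a, g b} := by
  rw [Finset.smul_finset_insert, Finset.smul_finset_singleton]
  rfl

/-- the index of the stabilizer of a duad -/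
theorem index_HD {a b : GolayPt} (ha : a ∈ YS) (hb : b ∈ YS) (hab : a ≠ b) : (HD {a, b}).index = 231 := by
  classical
  have hst : HD {a, b} = stabilizer Spor.M22 ({a, b} : Finset GolayPt) := by
    ext g
    rw [mem_HD, mem_stabilizer_iff]
    rfl
  have hY : ∀ x, x ∈ YS ↔ x ∈ (Finset.univ.erase (none : GolayPt)).erase (some 0) := by
    intro x
    rw [Finset.mem_erase, Finset.mem_erase]
    exact ⟨fun h => ⟨h.2, h.1, Finset.mem_univ _⟩, fun h => ⟨h.2.1, h.1⟩⟩
  rw [hst, index_stabilizer]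
  have h1 : orbit Spor.M22 ({a, b} : Finset GolayPt) =
      (((Finset.univ.erase (none : GolayPt)).erase (some 0)).powersetCard 2 : Finset (Finset GolayPt)) := by
    ext D
    rw [Finset.mem_coe, Finset.mem_powersetCard]
    constructor
    · rintro ⟨g, rfl⟩
      show (g : Equiv.Perm GolayPt) • ({a, b} : Finset GolayPt) ⊆ _ ∧ ((g : Equiv.Perm GolayPt) • ({a, b} : Finset GolayPt)).card = 2
      rw [Finset.card_smul_finset, Finset.card_pair hab, smul_pair]
      refine ⟨?_, rfl⟩
      intro x hx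
      rw [Finset.mem_insert, Finset.mem_singleton] at hx
      rcases hx with rfl | rfl
      · exact (hY _).1 (hYS g g.2 a ha)
      · exact (hY _).1 (hYS g g.2 b hb)
    · rintro ⟨h1, h2⟩
      obtain ⟨x, y, hxy, rfl⟩ := Finset.card_eq_two.1 h2
      obtain ⟨g, e1, e2⟩ := tr2 ha hb ((hY x).2 (h1 (by simp))) ((hY y).2 (h1 (by simp))) hab hxy
      refine ⟨g, ?_⟩
      show (g : Equiv.Perm GolayPt) • ({a, b} : Finset GolayPt) = {x, y}
      rw [smul_pair, e1, e2]
  rw [h1, Set.ncard_coe_finset, Finset.card_powersetCard]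
  decide

theorem fix154 {a b : GolayPt} (ha : a ∈ YS) (hb : b ∈ YS) (hab : a ≠ b) :
    letI := actY; letI := actX; Fix (HD {a, b}) (dif (G := Spor.M22) XP YS) := by
  let _ := actY
  let _ := actX
  classical
  have hfin : Finite Spor.M22 := Nat.finite_of_card_ne_zero (by rw [card_M22]; norm_num)
  refine fix_dif XP YS (HD {a, b}) ?_
  have h1 : no (HD {a, b}) YS ≤ 2 := by
    -- representatives
    obtain ⟨c, hc⟩ : ∃ c, c ∉ ({none, some 0, a, b} : Finset GolayPt) := by
      by_contra hcon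
      push Not at hcon
      have h1 : (Finset.univ : Finset GolayPt) ⊆ {none, some 0, a, b} := fun z _ => hcon z
      have h2 := Finset.card_le_card h1
      have h3 : (({none, some 0, a, b} : Finset GolayPt)).card ≤ 4 := Finset.card_le_four
      have h4 : (Finset.univ : Finset GolayPt).card = 24 := by simp
      omega
    simp only [Finset.mem_insert, Finset.mem_singleton, not_or] at hc
    have hcY : c ∈ YS := ⟨hc.1, hc.2.1⟩
    refine no_le (![⟨a, ha⟩, ⟨c, hcY⟩]) fun y => ?_
    by_cases hya : (y : GolayPt) = a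
    · refine ⟨0, 1, ?_⟩
      rw [one_smul]
      exact Subtype.ext hya.symm
    by_cases hyb : (y : GolayPt) = b
    · obtain ⟨g, e1, e2⟩ := tr2 ha hb hb ha hab hab.symm
      refine ⟨0, ⟨g, ?_⟩, ?_⟩
      · rw [mem_HD, smul_pair, e1, e2, Finset.pair_comm]
      · exact Subtype.ext (e1.trans hyb.symm)
    · obtain ⟨g, e1, e2, e3⟩ := tr3 ha hb hcY ha hb y.2 hab (Ne.symm hc.2.2.1) (Ne.symm hc.2.2.2) hab
        (Ne.symm hya) (Ne.symm hyb)
      refine ⟨1, ⟨g, ?_⟩, ?_⟩
      · rw [mem_HD, smul_pair, e1, e2]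
      · exact Subtype.ext e3
  have h2 : 3 ≤ no (HD {a, b}) XP := by
    obtain ⟨o, ho⟩ := XP_nonempty
    obtain ⟨c, d, hc, hd, hcd, hco, hdo⟩ := two_in ho
    obtain ⟨c', d', hc', hd', hcd', hco', hdo'⟩ := two_out ho
    have h := le_no (G := HD {a, b}) (X := XP) (fun t => ((t : Finset GolayPt) ∩ {a, b}).card) ?_ {0, 1, 2} ?_
    · exact h
    · rintro ⟨g, hg⟩ ⟨x, hx⟩
      rw [mem_HD] at hg
      show ((g : Equiv.Perm GolayPt) • x ∩ {a, b}).card = (x ∩ {a, b}).card
      conv_lhs => rw [← hg]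
      rw [← Finset.smul_finset_inter, Finset.card_smul_finset]
    · have key : ∀ (u v : GolayPt), u ∈ YS → v ∈ YS → u ≠ v → ∃ x : XP, (a ∈ (x : Finset GolayPt) ↔ u ∈ o) ∧
          (b ∈ (x : Finset GolayPt) ↔ v ∈ o) := by
        intro u v hu hv huv
        obtain ⟨g, e1, e2⟩ := tr2 hu hv ha hb huv hab
        refine ⟨g • (⟨o, ho⟩ : XP), ?_, ?_⟩
        · show a ∈ (g : Equiv.Perm GolayPt) • o ↔ _
          rw [← e1]
          exact Finset.smul_mem_smul_finset_iff _
        · show b ∈ (g : Equiv.Perm GolayPt) • o ↔ _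
          rw [← e2]
          exact Finset.smul_mem_smul_finset_iff _
      intro t ht
      simp only [Finset.mem_insert, Finset.mem_singleton] at ht
      rcases ht with rfl | rfl | rfl
      · obtain ⟨x, h1, h2⟩ := key c' d' hc' hd' hcd'
        refine ⟨x, ?_⟩
        have h3 : (x : Finset GolayPt) ∩ {a, b} = ∅ := by
          ext z
          simp only [Finset.mem_inter, Finset.mem_insert, Finset.mem_singleton, Finset.notMem_empty, iff_false, not_and]
          rintro hz (rfl | rfl)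
          · exact hco' (h1.1 hz)
          · exact hdo' (h2.1 hz)
        rw [h3, Finset.card_empty]
      · obtain ⟨x, h1, h2⟩ := key c d' hc hd' (fun h => hdo' (h ▸ hco))
        refine ⟨x, ?_⟩
        have h3 : (x : Finset GolayPt) ∩ {a, b} = {a} := by
          ext z
          simp only [Finset.mem_inter, Finset.mem_insert, Finset.mem_singleton]
          constructor
          · rintro ⟨hz, rfl | rfl⟩
            · rfl
            · exact absurd (h2.1 hz) hdo'
          · rintro rfl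
            exact ⟨h1.2 hco, Or.inl rfl⟩
        rw [h3, Finset.card_singleton]
      · obtain ⟨x, h1, h2⟩ := key c d hc hd hcd
        refine ⟨x, ?_⟩
        have h3 : (x : Finset GolayPt) ∩ {a, b} = {a, b} := by
          rw [Finset.inter_eq_right]
          intro z hz
          rw [Finset.mem_insert, Finset.mem_singleton] at hz
          rcases hz with rfl | rfl
          · exact h1.2 hco
          · exact h2.2 hdo
        rw [h3, Finset.card_pair hab]
  omega

theorem imc_two_m22 [Fact (Nat.Prime 2)] : IMC 2 Spor.M22 := by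
  let _ := actY
  let _ := actX
  have hfin : Finite Spor.M22 := Nat.finite_of_card_ne_zero (by rw [card_M22]; norm_num)
  obtain ⟨o, ho⟩ := XP_nonempty
  obtain ⟨a, b, ha, hb, hab, -, -⟩ := two_in ho
  refine IMC.of_le (HD {a, b}) (by rw [index_HD ha hb hab]; norm_num) ⟨_, irr154⟩ ?_ (fix154 ha hb hab)
  have h4 := Cfsg.Agent.Blocks.Basic.irr_one_eq_charDegree irr154
  rw [dif_one XP YS (by rw [card_XP, card_YS]; norm_num), card_XP, card_YS] at h4
  have h5 : 176 - 22 = charDegree (dif (G := Spor.M22) XP YS) := by exact_mod_cast h4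
  show 2 ∣ charDegree (dif (G := Spor.M22) XP YS)
  rw [← h5]
  norm_num

theorem imc_three_m22 [Fact (Nat.Prime 3)] : IMC 3 Spor.M22 := by
  let _ := actY
  have hfin : Finite Spor.M22 := Nat.finite_of_card_ne_zero (by rw [card_M22]; norm_num)
  have h2 : IsMultiplyPretransitive Spor.M22 YS 2 := by
    rw [is_two_pretransitive_iff]
    intro a b c d hab hcd
    obtain ⟨g, h1, h2⟩ := tr2 a.2 b.2 c.2 d.2 (fun h => hab (Subtype.ext h)) (fun h => hcd (Subtype.ext h))
    exact ⟨g, Subtype.ext h1, Subtype.ext h2⟩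
  exact imc_two_transitive YS h2 (by rw [card_YS]; norm_num) (by rw [card_YS]; norm_num)

universe u

/-- **`M22`** -/
theorem imc_m22 {S : Type u} [Group S] [Finite S] (h : Spor.IsoM22 S) {p : ℕ} [hp : Fact p.Prime]
    (hd : p ∣ Nat.card S) : IMC p S := by
  by_cases h2 : p = 2
  · subst h2
    obtain ⟨e⟩ := h
    exact IMC.of_equiv e imc_two_m22
  by_cases h3 : p = 3
  · subst h3
    obtain ⟨e⟩ := h
    exact IMC.of_equiv e imc_three_m22
  refine imc_of_exact hd ?_ (im_m22 h hd)
  obtain ⟨e⟩ := h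
  rw [Nat.card_congr e.toEquiv, card_M22]
  intro hd2
  have h4 := prime_cases (n := 443520) hp.out [2, 2, 2, 2, 2, 2, 2, 3, 3, 5, 7, 11] (by decide)
    ((dvd_pow_self p two_ne_zero).trans hd2) (by decide)
  simp only [List.mem_cons, List.not_mem_nil, or_false] at h4
  rcases h4 with rfl | rfl | rfl | rfl | rfl | rfl | rfl | rfl | rfl | rfl | rfl | rfl <;> revert hd2 h2 h3 <;> decide

end Cfsg.Agent.H119.IMC
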